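import Mathlib
import Cfsg.Agent.TwoGroup.UniqueInvolution

/-!
# Groups in which subgroups of equal order are conjugate: Sylow 2-subgroups

Quotients inherit the property, and a Sylow 2-subgroup is cyclic, quaternion of order eight, or
elementary abelian.
-/

set_option autoImplicit false

namespace CfsgLib.EqOrderConj75

/-- Any two subgroups of the same order are conjugate. -/
def EqOrdConj (G : Type*) [Group G] : Prop :=
  ∀ H K : Subgroup G, Nat.card H = Nat.card K → ∃ g : G, K = H.map (MulAut.conj g).toMonoidHom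

variable {G : Type*} [Group G] [Finite G]

theorem EqOrdConj.quotient (h : EqOrdConj G) (N : Subgroup G) [N.Normal] : EqOrdConj (G ⧸ N) := by
  intro H K hc
  have key : ∀ A : Subgroup (G ⧸ N),
      Nat.card (A.comap (QuotientGroup.mk' N)) = Nat.card A * Nat.card N := by
    intro A
    have h1 := Subgroup.card_mul_index (A.comap (QuotientGroup.mk' N))
    rw [Subgroup.index_comap_of_surjective _ (QuotientGroup.mk'_surjective N),
      Subgroup.card_eq_card_quotient_mul_card_subgroup N, ← Subgroup.card_mul_index A] at h1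
    refine Nat.eq_of_mul_eq_mul_right (Nat.pos_of_ne_zero A.index_ne_zero_of_finite) ?_
    rw [h1]
    ring
  obtain ⟨g, hg⟩ := h (H.comap (QuotientGroup.mk' N)) (K.comap (QuotientGroup.mk' N))
    (by rw [key, key, hc])
  refine ⟨QuotientGroup.mk g, ?_⟩
  have hg' := congrArg (Subgroup.map (QuotientGroup.mk' N)) hg
  rw [Subgroup.map_comap_eq_self_of_surjective (QuotientGroup.mk'_surjective N),
    Subgroup.map_map] at hg'
  rw [hg']
  conv_rhs => rw [← Subgroup.map_comap_eq_self_of_surjective (QuotientGroup.mk'_surjective N) H,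
    Subgroup.map_map]
  congr 1

omit [Finite G] in
theorem EqOrdConj.exists_conj (h : EqOrdConj G) {t u : G} (ht : orderOf t = 2)
    (hu : orderOf u = 2) : ∃ g : G, g * t * g⁻¹ = u := by
  obtain ⟨g, hg⟩ := h (Subgroup.zpowers t) (Subgroup.zpowers u)
    (by rw [Nat.card_zpowers, Nat.card_zpowers, ht, hu])
  refine ⟨g, ?_⟩
  have hm : (MulAut.conj g).toMonoidHom t ∈ Subgroup.zpowers u := by
    rw [hg]; exact Subgroup.mem_map_of_mem _ (Subgroup.mem_zpowers t)
  obtain ⟨k, hk⟩ := Subgroup.mem_zpowers_iff.mp hm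
  simp only [MulEquiv.coe_toMonoidHom, MulAut.conj_apply] at hk
  have hne : g * t * g⁻¹ ≠ 1 := by
    intro e
    have h1 := orderOf_injective (MulAut.conj g).toMonoidHom (MulAut.conj g).injective t
    rw [MulEquiv.coe_toMonoidHom, MulAut.conj_apply, e, orderOf_one, ht] at h1
    omega
  have h2 : u ^ (2 : ℤ) = 1 := by rw [zpow_ofNat, ← hu, pow_orderOf_eq_one]
  rcases Int.even_or_odd k with ⟨m, rfl⟩ | ⟨m, rfl⟩
  · exact absurd (by rw [← hk, ← two_mul, zpow_mul, h2, one_zpow]) hne
  · rw [← hk, zpow_add, zpow_mul, h2, one_zpow, one_mul, zpow_one]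

/-- The four-group on two commuting elements of square one. -/
def klein {z u : G} (hz : z * z = 1) (hu : u * u = 1) (hc : z * u = u * z) : Subgroup G where
  carrier := {1, z, u, z * u}
  one_mem' := Or.inl rfl
  mul_mem' := by
    intro a b ha hb
    simp only [Set.mem_insert_iff, Set.mem_singleton_iff] at ha hb ⊢
    rcases ha with rfl | rfl | rfl | rfl <;> rcases hb with rfl | rfl | rfl | rfl <;>
      first
      | (rw [one_mul]; tauto)
      | (rw [mul_one]; tauto)
      | (left; first
          | exact hz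
          | exact hu
          | rw [mul_assoc, ← mul_assoc u, ← hc, mul_assoc, hu, mul_one, hz])
      | (right; right; right; first | rfl | exact hc.symm)
      | (right; left; first
          | (rw [mul_assoc, hu, mul_one])
          | (rw [hc, ← mul_assoc, hu, one_mul]))
      | (right; right; left; first
          | (rw [← mul_assoc, hz, one_mul])
          | (rw [hc, mul_assoc, hz, mul_one]))
  inv_mem' := by
    intro a ha
    simp only [Set.mem_insert_iff, Set.mem_singleton_iff] at ha ⊢
    rcases ha with rfl | rfl | rfl | rfl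
    · exact Or.inl inv_one
    · exact Or.inr (Or.inl (inv_eq_of_mul_eq_one_right hz))
    · exact Or.inr (Or.inr (Or.inl (inv_eq_of_mul_eq_one_right hu)))
    · refine Or.inr (Or.inr (Or.inr ?_))
      rw [mul_inv_rev, inv_eq_of_mul_eq_one_right hz, inv_eq_of_mul_eq_one_right hu, hc]

omit [Finite G] in
theorem card_klein {z u : G} (hz : z * z = 1) (hu : u * u = 1) (hc : z * u = u * z) (hz1 : z ≠ 1)
    (hu1 : u ≠ 1) (hzu : z ≠ u) : Nat.card (klein hz hu hc) = 4 := by
  classical
  have h : (({1, z, u, z * u} : Finset G) : Set G) = klein hz hu hc := by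
    push_cast
    rfl
  rw [← SetLike.coe_sort_coe, ← h, Nat.card_coe_set_eq, Set.ncard_coe_finset]
  have h1 : z * u ≠ 1 := fun e => hzu (mul_right_cancel (e.trans hu.symm))
  have h2 : z * u ≠ z := fun e => hu1 (mul_eq_left.mp e)
  have h3 : z * u ≠ u := fun e => hz1 (mul_eq_right.mp e)
  rw [Finset.card_insert_of_notMem (by simp [hz1.symm, hu1.symm, h1.symm]),
    Finset.card_insert_of_notMem (by simp [hzu, h2.symm]),
    Finset.card_insert_of_notMem (by simp [h3.symm]), Finset.card_singleton]

omit [Finite G] in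
theorem klein_sq {z u : G} (hz : z * z = 1) (hu : u * u = 1) (hc : z * u = u * z) :
    ∀ v ∈ klein hz hu hc, v * v = 1 := by
  intro v hv
  change v ∈ ({1, z, u, z * u} : Set G) at hv
  simp only [Set.mem_insert_iff, Set.mem_singleton_iff] at hv
  rcases hv with rfl | rfl | rfl | rfl
  · exact one_mul 1
  · exact hz
  · exact hu
  · rw [mul_assoc, ← mul_assoc u, ← hc, mul_assoc, hu, mul_one, hz]

/-- A cyclic and a non-commutative subgroup of the same order cannot both exist. -/
theorem EqOrdConj.commute_of_cyclic (h : EqOrdConj G) {A B : Subgroup G} [IsCyclic A]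
    (hc : Nat.card A = Nat.card B) {x y : G} (hx : x ∈ B) (hy : y ∈ B) : x * y = y * x := by
  obtain ⟨g, rfl⟩ := h A B hc
  obtain ⟨a, ha, rfl⟩ := hx
  obtain ⟨b, hb, rfl⟩ := hy
  letI := IsCyclic.commGroup (α := A)
  have hab : a * b = b * a := congrArg Subtype.val (mul_comm (⟨a, ha⟩ : A) ⟨b, hb⟩)
  rw [← map_mul, ← map_mul, hab]

/-- The parity map of a generalized quaternion group. -/
def quatParity (m : ℕ) : QuaternionGroup (2 * m) →* Multiplicative (ZMod 2) where
  toFun g := match g with
    | .a i => Multiplicative.ofAdd (ZMod.castHom (dvd_mul_right 2 (2 * m)) (ZMod 2) i)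
    | .xa i => Multiplicative.ofAdd (ZMod.castHom (dvd_mul_right 2 (2 * m)) (ZMod 2) i)
  map_one' := by
    show Multiplicative.ofAdd (ZMod.castHom _ (ZMod 2) 0) = 1
    rw [map_zero]; rfl
  map_mul' := by
    have hn : (ZMod.castHom (dvd_mul_right 2 (2 * m)) (ZMod 2)) ((2 * m : ℕ) : ZMod (2 * (2 * m))) = 0 := by
      rw [map_natCast, ZMod.natCast_eq_zero_iff]
      exact dvd_mul_right 2 m
    have hneg : ∀ x : ZMod 2, -x = x := by decide
    rintro (i | i) (j | j) <;>
      simp only [QuaternionGroup.a_mul_a, QuaternionGroup.a_mul_xa, QuaternionGroup.xa_mul_a,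
        QuaternionGroup.xa_mul_xa, map_add, map_sub, sub_eq_add_neg, map_neg, hn, hneg, zero_add,
        ← ofAdd_add]
    all_goals (congr 1; abel)

/-- No generalized quaternion Sylow subgroup of order at least sixteen. -/
theorem quat_false (h : EqOrdConj G) (S : Subgroup G) {m : ℕ} (hm : 2 ≤ m)
    (e : S ≃* QuaternionGroup (2 * m)) : False := by
  haveI : NeZero (2 * m) := ⟨by omega⟩
  set ι : QuaternionGroup (2 * m) →* G := S.subtype.comp e.symm.toMonoidHom with hι
  have hinj : Function.Injective ι := S.subtype_injective.comp e.symm.injective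
  set K := (quatParity m).ker with hK
  set A := Subgroup.zpowers (ι (QuaternionGroup.a 1)) with hA
  have hsurj : Function.Surjective (quatParity m) := by
    intro x
    have hx : x = 1 ∨ x = Multiplicative.ofAdd 1 := by revert x; decide
    rcases hx with rfl | rfl
    · exact ⟨1, map_one _⟩
    · refine ⟨QuaternionGroup.a 1, ?_⟩
      show Multiplicative.ofAdd _ = _
      rw [map_one]
  have hKc : Nat.card (K.map ι) = 2 * (2 * m) := by
    rw [Subgroup.card_map_of_injective hinj]
    have h1 := K.card_mul_index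
    rw [hK, Subgroup.index_ker, MonoidHom.range_eq_top.mpr hsurj, Subgroup.card_top,
      Nat.card_congr Multiplicative.toAdd, Nat.card_zmod, Nat.card_eq_fintype_card (α := QuaternionGroup _),
      QuaternionGroup.card] at h1
    rw [hK]
    omega
  have hAc : Nat.card A = 2 * (2 * m) := by
    rw [hA, Nat.card_zpowers, orderOf_injective ι hinj, QuaternionGroup.orderOf_a_one]
  have hx : (QuaternionGroup.xa 0 : QuaternionGroup (2 * m)) ∈ K := by
    rw [hK, MonoidHom.mem_ker]
    show Multiplicative.ofAdd _ = _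
    rw [map_zero]; rfl
  have hy : (QuaternionGroup.a 2 : QuaternionGroup (2 * m)) ∈ K := by
    rw [hK, MonoidHom.mem_ker]
    show Multiplicative.ofAdd _ = _
    rw [map_ofNat]; rfl
  have hcm := h.commute_of_cyclic (A := A) (B := K.map ι) (hAc.trans hKc.symm)
    (Subgroup.mem_map_of_mem ι hx) (Subgroup.mem_map_of_mem ι hy)
  rw [← map_mul, ← map_mul] at hcm
  have h2 := hinj hcm
  rw [QuaternionGroup.xa_mul_a, QuaternionGroup.a_mul_xa, QuaternionGroup.xa.injEq, zero_add,
    zero_sub, eq_neg_iff_add_eq_zero, show (2 : ZMod (2 * (2 * m))) + 2 = ((4 : ℕ) : ZMod (2 * (2 * m))) by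
      norm_num, ZMod.natCast_eq_zero_iff] at h2
  have := Nat.le_of_dvd (by norm_num) h2
  omega

omit [Finite G] in
theorem orderOf_eq_two {x : G} (h : x * x = 1) (h1 : x ≠ 1) : orderOf x = 2 :=
  orderOf_eq_prime (by rw [pow_two, h]) h1

omit [Finite G] in
theorem mul_self_of_orderOf {x : G} (h : orderOf x = 2) : x * x = 1 := by
  rw [← pow_two, ← h, pow_orderOf_eq_one]

/-- The shape of a Sylow 2-subgroup: every element squares to one, or there is only one
involution and the subgroup is cyclic or quaternion of order eight. -/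
theorem sylow_shape (h : EqOrdConj G) (S : Sylow 2 G) :
    (∀ x ∈ (S : Subgroup G), x * x = 1) ∨ IsCyclic (S : Subgroup G) ∨
      Nonempty ((S : Subgroup G) ≃* QuaternionGroup 2) := by
  by_cases hel : ∀ x ∈ (S : Subgroup G), x * x = 1
  · exact Or.inl hel
  refine Or.inr ?_
  push Not at hel
  obtain ⟨x, hxS, hx⟩ := hel
  -- an element of order four
  obtain ⟨k, hk⟩ := (S.2.to_le (Subgroup.zpowers_le.mpr hxS)).exists_card_eq
  rw [Nat.card_zpowers] at hk
  have hk2 : 2 ≤ k := by
    by_contra hlt
    refine hx ?_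
    rw [← pow_two, ← orderOf_dvd_iff_pow_eq_one, hk]
    exact (pow_dvd_pow 2 (show k ≤ 1 by omega)).trans (by norm_num)
  obtain ⟨y, hy, hyS⟩ : ∃ y : G, orderOf y = 4 ∧ y ∈ (S : Subgroup G) := by
    refine ⟨x ^ 2 ^ (k - 2), ?_, pow_mem hxS _⟩
    have hdvd : 2 ^ (k - 2) ∣ orderOf x := hk ▸ pow_dvd_pow 2 (by omega)
    rw [orderOf_pow_of_dvd (by positivity) hdvd, hk, Nat.pow_div (by omega) two_pos,
      show k - (k - 2) = 2 by omega]
    norm_num
  haveI : Nontrivial (S : Subgroup G) :=
    ⟨⟨⟨y, hyS⟩, 1, fun e => by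
      have : y = 1 := congrArg Subtype.val e
      rw [this, orderOf_one] at hy; omega⟩⟩
  have hSp : IsPGroup 2 (S : Subgroup G) := S.2
  haveI := hSp.center_nontrivial
  obtain ⟨j, hj⟩ := (hSp.to_subgroup (Subgroup.center (S : Subgroup G))).exists_card_eq
  have hd : 2 ∣ Nat.card (Subgroup.center (S : Subgroup G)) := by
    rw [hj]
    refine dvd_pow_self 2 fun h0 => ?_
    have := Finite.one_lt_card (α := Subgroup.center (S : Subgroup G))
    rw [hj, h0, pow_zero] at this; omega
  obtain ⟨⟨z, hzc⟩, hz2⟩ := exists_prime_orderOf_dvd_card' 2 hd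
  rw [Subgroup.orderOf_mk] at hz2
  have huniq : TwoGroup.AtMostOneInvolution (S : Subgroup G) := by
    have key : ∀ u : (S : Subgroup G), orderOf u = 2 → u = z := by
      intro u hu
      by_contra hne
      have hzz := congrArg Subtype.val (mul_self_of_orderOf hz2)
      have huu := congrArg Subtype.val (mul_self_of_orderOf hu)
      have hc : (z : G) * u = u * z :=
        congrArg Subtype.val (Subgroup.mem_center_iff.mp hzc u).symm
      simp only [Subgroup.coe_mul, Subgroup.coe_one] at hzz huu
      have hcard := card_klein hzz huu hc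
        (fun e => by
          have h' := (Subgroup.orderOf_coe z).trans hz2
          rw [e, orderOf_one] at h'; omega)
        (fun e => by
          have h' := (Subgroup.orderOf_coe u).trans hu
          rw [e, orderOf_one] at h'; omega)
        (fun e => hne (Subtype.ext e).symm)
      obtain ⟨g, hg⟩ := h (klein hzz huu hc) (Subgroup.zpowers y)
        (by rw [hcard, Nat.card_zpowers, hy])
      have hy' : y ∈ (klein hzz huu hc).map (MulAut.conj g).toMonoidHom :=
        hg ▸ Subgroup.mem_zpowers y
      obtain ⟨v, hv, hvy⟩ := hy'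
      have h1 : y * y = 1 := by
        rw [← hvy, ← map_mul, klein_sq hzz huu hc v hv, map_one]
      have := Nat.le_of_dvd two_pos (orderOf_dvd_of_pow_eq_one (show y ^ 2 = 1 by rw [pow_two, h1]))
      omega
    exact fun a b ha hb => (key a ha).trans (key b hb).symm
  rcases TwoGroup.cyclic_or_quaternion hSp huniq with hc | ⟨n, hn, ⟨e⟩⟩
  · exact Or.inl hc
  rcases Nat.lt_or_ge n 2 with hlt | hge
  · rw [show n = 1 by omega, pow_one] at e
    exact Or.inr ⟨e⟩
  · exfalso
    rw [show 2 ^ n = 2 * 2 ^ (n - 1) by rw [← pow_succ']; congr 1; omega] at e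
    exact quat_false h _ (Nat.le_self_pow (by omega) 2) e

end CfsgLib.EqOrderConj75
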