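import Cfsg.Agent.EqOrderConj75.Basic
import Cfsg.Agent.BaerSuzuki.Basic
import Cfsg.Agent.Constrained.Basic
import Cfsg.Agent.StronglyEmbedded.Criteria

/-!
# Elementary abelian Sylow 2-subgroups: centralizers of involutions normalize the Sylow subgroup
-/

set_option autoImplicit false

namespace CfsgLib.EqOrderConj75

open Cfsg
open scoped Pointwise

variable {G : Type*} [Group G] [Finite G]

omit [Finite G] in
theorem commute_of_sq {S : Subgroup G} (hel : ∀ x ∈ S, x * x = 1) {x y : G} (hx : x ∈ S)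
    (hy : y ∈ S) : x * y = y * x := by
  have h1 := hel _ (mul_mem hx hy)
  have h2 := inv_eq_of_mul_eq_one_right h1
  rw [mul_inv_rev, inv_eq_of_mul_eq_one_right (hel x hx), inv_eq_of_mul_eq_one_right (hel y hy)] at h2
  exact h2.symm

omit [Finite G] in
theorem isElementaryAbelian_of_sq {S : Subgroup G} (hel : ∀ x ∈ S, x * x = 1) :
    IsElementaryAbelian 2 S :=
  ⟨⟨⟨fun a b => Subtype.ext (commute_of_sq hel a.2 b.2)⟩⟩, fun a ha => by rw [pow_two, hel a ha]⟩

/-- An involution centralizing an element of odd order and one inverting it give two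
non-isomorphic subgroups of the same order. -/
theorem not_inverted (h : EqOrdConj G) {t u y : G} (ht : orderOf t = 2) (hu : orderOf u = 2)
    {r : ℕ} (hr : r.Prime) (hr2 : r ≠ 2) (hy : orderOf y = r) (hty : t * y = y * t)
    (huy : u * y * u⁻¹ = y⁻¹) : False := by
  classical
  set A := Subgroup.zpowers (t * y)
  set B := Subgroup.zpowers y ⊔ Subgroup.zpowers u
  have hcop : Nat.Coprime r 2 := (Nat.coprime_primes hr Nat.prime_two).mpr hr2
  have hA : Nat.card A = r * 2 := by
    rw [Nat.card_zpowers, Commute.orderOf_mul_eq_mul_orderOf_of_coprime hty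
      (by rw [ht, hy]; exact hcop.symm), ht, hy, mul_comm]
  have hN : Subgroup.zpowers u ≤ Subgroup.normalizer ((Subgroup.zpowers y : Subgroup G) : Set G) := by
    rw [Subgroup.zpowers_le, Subgroup.mem_normalizer_iff_map_conj_eq, MonoidHom.map_zpowers]
    show Subgroup.zpowers (u * y * u⁻¹) = _
    rw [huy, Subgroup.zpowers_inv]
  have hdisj : Subgroup.zpowers y ⊓ Subgroup.zpowers u = ⊥ :=
    Subgroup.inf_eq_bot_of_coprime (by rwa [Nat.card_zpowers, Nat.card_zpowers, hy, hu])
  have hB : Nat.card B = r * 2 := by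
    rw [← SetLike.coe_sort_coe, show (B : Set G) =
      (Subgroup.zpowers y : Set G) * (Subgroup.zpowers u : Set G) from
        Subgroup.coe_mul_of_right_le_normalizer_left _ _ hN]
    rw [← hy, ← hu, ← Nat.card_zpowers y, ← Nat.card_zpowers u, ← Nat.card_prod]
    refine (Nat.card_congr (Equiv.ofBijective
      (fun p : Subgroup.zpowers y × Subgroup.zpowers u =>
        (⟨p.1 * p.2, Set.mul_mem_mul p.1.2 p.2.2⟩ :
          ((Subgroup.zpowers y : Set G) * (Subgroup.zpowers u : Set G) : Set G))) ⟨?_, ?_⟩)).symm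
    · intro p q e
      exact Subgroup.mul_injective_of_disjoint (disjoint_iff.mpr hdisj) (congrArg Subtype.val e)
    · rintro ⟨_, a, ha, b, hb, rfl⟩
      exact ⟨(⟨a, ha⟩, ⟨b, hb⟩), rfl⟩
  have hc := h.commute_of_cyclic (A := A) (B := B) (hA.trans hB.symm)
    (Subgroup.mem_sup_right (Subgroup.mem_zpowers u)) (Subgroup.mem_sup_left (Subgroup.mem_zpowers y))
  rw [hc, mul_inv_cancel_right] at huy
  have h2 : y ^ 2 = 1 := by rw [pow_two, mul_eq_one_iff_eq_inv]; exact huy
  have := Nat.le_of_dvd two_pos (orderOf_dvd_of_pow_eq_one h2)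
  have := hr.two_le
  omega

/-- The centralizer of an involution of an elementary abelian Sylow 2-subgroup normalizes it. -/
theorem centralizer_le_normalizer (h : EqOrdConj G) (S : Sylow 2 G)
    (hel : ∀ x ∈ (S : Subgroup G), x * x = 1) {t : G} (ht : orderOf t = 2)
    (htS : t ∈ (S : Subgroup G)) :
    Subgroup.centralizer ({t} : Set G) ≤ Subgroup.normalizer ((S : Subgroup G) : Set G) := by
  set C := Subgroup.centralizer ({t} : Set G) with hC
  have key : ∀ u : C, orderOf u = 2 → u ∈ pCore 2 C := by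
    intro u hu
    by_contra hnot
    obtain ⟨y, hy1, hyodd, huy⟩ := BaerSuzuki.involution_inverts_odd hu hnot
    set m := orderOf y with hm
    have hm1 : m ≠ 1 := fun e => hy1 (orderOf_eq_one_iff.mp e)
    have hr := Nat.minFac_prime hm1
    have hrd : m.minFac ∣ m := Nat.minFac_dvd m
    have hm0 : m ≠ 0 := (orderOf_pos y).ne'
    set y' := y ^ (m / m.minFac) with hy'
    have hy'o : orderOf y' = m.minFac := by
      rw [hy', orderOf_pow_of_dvd (Nat.div_pos (Nat.minFac_le (orderOf_pos y)) hr.pos).ne'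
        (Nat.div_dvd_of_dvd hrd), Nat.div_div_self hrd hm0]
    refine not_inverted h ht ((Subgroup.orderOf_coe u).trans hu) hr ?_
      ((Subgroup.orderOf_coe y').trans hy'o)
      (Subgroup.mem_centralizer_singleton_iff.mp y'.2).symm ?_
    · intro e
      rw [e] at hrd
      exact (Nat.not_even_iff_odd.mpr hyodd) (even_iff_two_dvd.mpr hrd)
    · have h2 : u * y' * u⁻¹ = y'⁻¹ := by rw [hy', ← conj_pow, huy, inv_pow]
      exact congrArg Subtype.val h2
  have hSC : (S : Subgroup G) ≤ C := fun s hs =>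
    Subgroup.mem_centralizer_singleton_iff.mpr (commute_of_sq hel hs htS)
  have hle : (S : Subgroup G) ≤ (pCore 2 C).map C.subtype := by
    intro s hs
    refine ⟨⟨s, hSC hs⟩, ?_, rfl⟩
    rcases eq_or_ne s 1 with rfl | hs1
    · exact Subgroup.one_mem _
    · exact key _ (orderOf_eq_two (Subtype.ext (hel s hs)) (fun e => hs1 (congrArg Subtype.val e)))
  haveI : Fact (Nat.Prime 2) := ⟨Nat.prime_two⟩
  have heq := S.3 (Constrained.isPGroup_pCore.map C.subtype) hle
  intro c hc
  rw [Subgroup.mem_normalizer_iff_map_conj_eq]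
  rw [← heq]
  have hn : (pCore 2 C).Normal := inferInstance
  refine Subgroup.eq_of_le_of_card_ge ?_
    (le_of_eq (Subgroup.card_map_of_injective (MulAut.conj c).injective).symm)
  rintro _ ⟨_, ⟨v, hv, rfl⟩, rfl⟩
  exact ⟨⟨c, hc⟩ * v * ⟨c, hc⟩⁻¹, hn.conj_mem v hv _, rfl⟩

/-- A 2-element normalizing the Sylow 2-subgroup lies in it. -/
theorem mem_of_normalizer (S : Sylow 2 G) {x : G}
    (hx : x ∈ Subgroup.normalizer ((S : Subgroup G) : Set G)) (h2 : x * x = 1) :
    x ∈ (S : Subgroup G) := by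
  haveI : Fact (Nat.Prime 2) := ⟨Nat.prime_two⟩
  have hp : IsPGroup 2 (Subgroup.zpowers x) := by
    rcases eq_or_ne x 1 with rfl | h1
    · rw [Subgroup.zpowers_one_eq_bot]; exact IsPGroup.of_bot
    · exact IsPGroup.of_card (n := 1) (by rw [Nat.card_zpowers, orderOf_eq_two h2 h1, pow_one])
  have := hp.inf_normalizer_sylow S
  exact (this.le ⟨Subgroup.mem_zpowers x, hx⟩).2

/-- If the Sylow 2-subgroup is not normal, its normalizer is strongly embedded. -/
theorem normalizer_stronglyEmbedded (h : EqOrdConj G) (S : Sylow 2 G)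
    (hel : ∀ x ∈ (S : Subgroup G), x * x = 1) (hne : (S : Subgroup G) ≠ ⊥)
    (hn : ¬ (S : Subgroup G).Normal) :
    IsStronglyEmbedded (Subgroup.normalizer ((S : Subgroup G) : Set G)) := by
  obtain ⟨t₀, ht₀, ht1⟩ := (Subgroup.bot_or_exists_ne_one _).resolve_left hne
  refine StronglyEmbedded.intro_of_conj_mem (fun e => hn (Subgroup.normalizer_eq_top_iff.mp e))
    (StronglyEmbedded.even_card_of_mem (orderOf_eq_two (hel t₀ ht₀) ht1)
      (Subgroup.le_normalizer ht₀)) fun t g ht htN hg => ?_
  have htS := mem_of_normalizer S htN (mul_self_of_orderOf ht)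
  have hu : orderOf (g * t * g⁻¹) = 2 :=
    (orderOf_injective (MulAut.conj g).toMonoidHom (MulAut.conj g).injective t).trans ht
  have huS := mem_of_normalizer S hg (mul_self_of_orderOf hu)
  rw [Subgroup.mem_normalizer_iff_map_conj_eq]
  refine Subgroup.eq_of_le_of_card_ge ?_
    (le_of_eq (Subgroup.card_map_of_injective (MulAut.conj g).injective).symm)
  rintro _ ⟨s, hs, rfl⟩
  refine mem_of_normalizer S (centralizer_le_normalizer h S hel hu huS ?_) ?_
  · rw [Subgroup.mem_centralizer_singleton_iff]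
    show g * s * g⁻¹ * (g * t * g⁻¹) = g * t * g⁻¹ * (g * s * g⁻¹)
    calc g * s * g⁻¹ * (g * t * g⁻¹) = g * (s * t) * g⁻¹ := by group
      _ = g * (t * s) * g⁻¹ := by rw [commute_of_sq hel hs htS]
      _ = g * t * g⁻¹ * (g * s * g⁻¹) := by group
  · rw [← map_mul, hel s hs, map_one]

end CfsgLib.EqOrderConj75
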