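import Cfsg.Agent.EqOrderConj75.Central
import Cfsg.Agent.SelfCentPrime.PrimeCore

/-!
# The simple normal subgroup
-/

set_option autoImplicit false

namespace CfsgLib.EqOrderConj75

open Cfsg

variable {G : Type*} [Group G] [Finite G]

theorem normal_odd_eq_bot (hO : oddCore G = ⊥) {N : Subgroup G} (hN : N.Normal)
    (hodd : ¬ 2 ∣ Nat.card N) : N = ⊥ := by
  refine le_bot_iff.mp ?_
  rw [← hO]
  exact SelfCentPrime.le_pPrimeCore hN (Nat.prime_two.coprime_iff_not_dvd.mpr hodd).symm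

omit [Finite G] in
theorem mem_of_normal_involution (h : EqOrdConj G) {N : Subgroup G} (hN : N.Normal) {t u : G}
    (ht : orderOf t = 2) (htN : t ∈ N) (hu : orderOf u = 2) : u ∈ N := by
  obtain ⟨g, rfl⟩ := h.exists_conj ht hu
  exact hN.conj_mem t htN g

theorem sylow_le_normal (h : EqOrdConj G) (hO : oddCore G = ⊥) (S : Sylow 2 G)
    (hel : ∀ x ∈ (S : Subgroup G), x * x = 1) {N : Subgroup G} (hN : N.Normal) (hne : N ≠ ⊥) :
    (S : Subgroup G) ≤ N := by
  haveI : Fact (Nat.Prime 2) := ⟨Nat.prime_two⟩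
  intro s hs
  rcases eq_or_ne s 1 with rfl | hs1
  · exact Subgroup.one_mem _
  obtain ⟨⟨t, htN⟩, ht⟩ := exists_prime_orderOf_dvd_card' (G := N) 2
    (by by_contra hodd; exact hne (normal_odd_eq_bot hO hN hodd))
  rw [Subgroup.orderOf_mk] at ht
  exact mem_of_normal_involution h hN ht htN (orderOf_eq_two (hel s hs) hs1)

/-- A non-trivial normal 2-subgroup is the Sylow 2-subgroup. -/
theorem sylow_normal_of_pgroup (h : EqOrdConj G) (hO : oddCore G = ⊥) (S : Sylow 2 G)
    (hel : ∀ x ∈ (S : Subgroup G), x * x = 1) {N : Subgroup G} (hN : N.Normal) (hne : N ≠ ⊥)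
    (hp : IsPGroup 2 N) : (S : Subgroup G).Normal := by
  have := S.3 hp (sylow_le_normal h hO S hel hN hne)
  rw [← this]
  exact hN

theorem exists_sylow_mem {u : G} (hu : orderOf u = 2) : ∃ P : Sylow 2 G, u ∈ (P : Subgroup G) := by
  haveI : Fact (Nat.Prime 2) := ⟨Nat.prime_two⟩
  obtain ⟨P, hP⟩ := (IsPGroup.of_card (p := 2) (n := 1)
    (by rw [Nat.card_zpowers, hu, pow_one]) : IsPGroup 2 (Subgroup.zpowers u)).exists_le_sylow
  exact ⟨P, hP (Subgroup.mem_zpowers u)⟩

theorem sq_eq_one_sylow (S : Sylow 2 G) (hel : ∀ x ∈ (S : Subgroup G), x * x = 1) (P : Sylow 2 G) :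
    ∀ x ∈ (P : Subgroup G), x * x = 1 := by
  haveI : Fact (Nat.Prime 2) := ⟨Nat.prime_two⟩
  obtain ⟨g, rfl⟩ := MulAction.exists_smul_eq G S P
  rintro _ ⟨s, hs, rfl⟩
  show g * s * g⁻¹ * (g * s * g⁻¹) = 1
  rw [show g * s * g⁻¹ * (g * s * g⁻¹) = g * (s * s) * g⁻¹ by group, hel s hs, mul_one, mul_inv_cancel]

/-- An element of a minimal normal subgroup of `L` is centralized only trivially: if two normal
subgroups of even order of `L` commute, one of them has a non-trivial normal 2-subgroup. -/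
theorem commuting_even (h : EqOrdConj G) (S : Sylow 2 G)
    (hel : ∀ x ∈ (S : Subgroup G), x * x = 1) {L : Subgroup G} (T T' : Subgroup L) [T.Normal]
    (hT2 : 2 ∣ Nat.card T) (hT'2 : 2 ∣ Nat.card T')
    (hcomm : ∀ a ∈ T, ∀ b ∈ T', a * b = b * a) :
    ∃ W : Subgroup L, W.Normal ∧ W ≠ ⊥ ∧ IsPGroup 2 W := by
  haveI : Fact (Nat.Prime 2) := ⟨Nat.prime_two⟩
  obtain ⟨⟨u, huT⟩, hu⟩ := exists_prime_orderOf_dvd_card' (G := T') 2 hT'2
  obtain ⟨⟨t, htT⟩, ht⟩ := exists_prime_orderOf_dvd_card' (G := T) 2 hT2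
  rw [Subgroup.orderOf_mk] at hu ht
  obtain ⟨P, huP⟩ := exists_sylow_mem ((Subgroup.orderOf_coe u).trans hu)
  have hPel := sq_eq_one_sylow S hel P
  have hTN : ∀ a ∈ T, (a : G) ∈ Subgroup.normalizer ((P : Subgroup G) : Set G) := fun a ha =>
    centralizer_le_normalizer h P hPel ((Subgroup.orderOf_coe u).trans hu) huP
      (Subgroup.mem_centralizer_singleton_iff.mpr (congrArg Subtype.val (hcomm a ha u huT)))
  let W : Subgroup L := T ⊓ (P : Subgroup G).subgroupOf L
  have hW : ∀ a : L, a ∈ W ↔ a ∈ T ∧ a * a = 1 := fun a => by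
    refine ⟨fun ha => ⟨ha.1, Subtype.ext (hPel _ ha.2)⟩, fun ha => ⟨ha.1, ?_⟩⟩
    exact mem_of_normalizer P (hTN a ha.1) (congrArg Subtype.val ha.2)
  refine ⟨W, ⟨fun a ha l => ?_⟩, fun e => ?_, ?_⟩
  · rw [hW] at ha ⊢
    refine ⟨(inferInstance : T.Normal).conj_mem a ha.1 l, ?_⟩
    rw [show l * a * l⁻¹ * (l * a * l⁻¹) = l * (a * a) * l⁻¹ by group, ha.2, mul_one, mul_inv_cancel]
  · have h1 : t ∈ W := (hW t).mpr ⟨htT, mul_self_of_orderOf ht⟩
    rw [e, Subgroup.mem_bot] at h1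
    rw [h1, orderOf_one] at ht
    omega
  · intro ⟨a, ha⟩
    exact ⟨1, Subtype.ext (by simpa [pow_two] using ((hW a).mp ha).2)⟩

/-- The structure of `G` when the elementary abelian Sylow 2-subgroup is not normal. -/
theorem exists_simple (h : EqOrdConj G) (hO : oddCore G = ⊥) (S : Sylow 2 G)
    (hel : ∀ x ∈ (S : Subgroup G), x * x = 1) (hne : (S : Subgroup G) ≠ ⊥)
    (hn : ¬ (S : Subgroup G).Normal) :
    ∃ L : Subgroup G, L.Normal ∧ IsSimpleGroup L ∧ (S : Subgroup G) ≤ L ∧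
      Subgroup.centralizer (L : Set G) = ⊥ ∧ (∃ a b : L, a * b ≠ b * a) ∧
      ∃ H : Subgroup L, IsStronglyEmbedded H := by
  haveI : Fact (Nat.Prime 2) := ⟨Nat.prime_two⟩
  haveI : Nontrivial G := by
    obtain ⟨s, -, hs⟩ := (Subgroup.bot_or_exists_ne_one _).resolve_left hne
    exact ⟨⟨s, 1, hs⟩⟩
  obtain ⟨L, hLmin⟩ := (Set.toFinite {N : Subgroup G | N.Normal ∧ N ≠ ⊥}).exists_minimal
    ⟨⊤, Subgroup.normal_top, top_ne_bot⟩
  obtain ⟨hLn, hLb⟩ := hLmin.prop
  have hSL := sylow_le_normal h hO S hel hLn hLb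
  haveI : Nontrivial L := (Subgroup.nontrivial_iff_ne_bot L).mpr hLb
  -- no non-trivial normal 2-subgroup, no odd normal subgroup in `L`
  have hpc : pCore 2 L = ⊥ := by
    by_contra hb
    refine hn (sylow_normal_of_pgroup h hO S hel (N := (pCore 2 L).map L.subtype) inferInstance ?_
      (Constrained.isPGroup_pCore.map _))
    rwa [Ne, Subgroup.map_eq_bot_iff_of_injective _ L.subtype_injective]
  have hop : pPrimeCore 2 L = ⊥ := by
    have hch := SelfCentPrime.pPrimeCore_characteristic (G := L) 2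
    have hb := normal_odd_eq_bot hO (N := (pPrimeCore 2 L).map L.subtype) inferInstance (by
      rw [Subgroup.card_map_of_injective L.subtype_injective]
      exact Nat.prime_two.coprime_iff_not_dvd.mp (SelfCentPrime.pPrimeCore_mem (G := L) 2).2.symm)
    rwa [Subgroup.map_eq_bot_iff_of_injective _ L.subtype_injective] at hb
  have heven : ∀ T : Subgroup L, T.Normal → T ≠ ⊥ → 2 ∣ Nat.card T := fun T hT hTb => by
    by_contra hodd
    refine hTb (le_bot_iff.mp ?_)
    rw [← hop]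
    exact SelfCentPrime.le_pPrimeCore hT (Nat.prime_two.coprime_iff_not_dvd.mpr hodd).symm
  have hmeet : ∀ T T' : Subgroup L, T.Normal → T'.Normal → T ≠ ⊥ → T' ≠ ⊥ → T ⊓ T' ≠ ⊥ := by
    intro T T' hT hT' hb hb' hd
    obtain ⟨W, hW, hW1, hWp⟩ := commuting_even h S hel T T' (heven T hT hb) (heven T' hT' hb')
      fun a ha b hb => Subgroup.commute_of_normal_of_disjoint T T' hT hT' (disjoint_iff.mpr hd) a b ha hb
    refine hW1 (le_bot_iff.mp ?_)
    rw [← hpc]
    exact Constrained.le_pCore hW hWp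
  obtain ⟨T, hTmin⟩ := (Set.toFinite {N : Subgroup L | N.Normal ∧ N ≠ ⊥}).exists_minimal
    ⟨⊤, Subgroup.normal_top, top_ne_bot⟩
  obtain ⟨hTn, hTb⟩ := hTmin.prop
  have hTle : ∀ M : Subgroup L, M.Normal → M ≠ ⊥ → T ≤ M := fun M hM hMb => by
    haveI := hM
    exact (hTmin.le_of_le ⟨inferInstance, hmeet T M hTn hM hTb hMb⟩ inf_le_left).trans inf_le_right
  have hTX : (T.map L.subtype).Normal := by
    refine ⟨?_⟩
    rintro _ ⟨a, ha, rfl⟩ g
    let φ : MulAut L := MulAut.conjNormal g⁻¹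
    have hφn : (T.map φ.toMonoidHom).Normal := hTn.map _ φ.surjective
    have hφb : T.map φ.toMonoidHom ≠ ⊥ := by
      exact fun e => hTb ((Subgroup.map_eq_bot_iff_of_injective T (f := φ.toMonoidHom) φ.injective).mp e)
    obtain ⟨b, hb, hba⟩ := hTle _ hφn hφb ha
    refine ⟨b, hb, ?_⟩
    have h1 : g⁻¹ * (b : G) * g⁻¹⁻¹ = a := by
      rw [← hba]; exact (MulAut.conjNormal_apply (H := L) g⁻¹ b).symm
    show (b : G) = g * a * g⁻¹
    rw [← h1]; group
  have hTtop : T = ⊤ := by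
    rw [eq_top_iff]
    intro x _
    have := hLmin.le_of_le ⟨hTX, by rwa [Ne, Subgroup.map_eq_bot_iff_of_injective _ L.subtype_injective]⟩
      (Subgroup.map_subtype_le T) x.2
    exact (Subgroup.mem_map_iff_mem L.subtype_injective).mp this
  have hsimple : IsSimpleGroup L := ⟨fun M hM => by
    rcases eq_or_ne M ⊥ with hb | hb
    · exact Or.inl hb
    · exact Or.inr (top_le_iff.mp (hTtop ▸ hTle M hM hb))⟩
  have hna : ∃ a b : L, a * b ≠ b * a := by
    by_contra hcom
    push Not at hcom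
    have hP : ((S.subtype hSL : Sylow 2 L) : Subgroup L).Normal := ⟨fun x hx g => by
      rwa [hcom g x, mul_inv_cancel_right]⟩
    rcases hsimple.eq_bot_or_eq_top_of_normal _ hP with e | e
    · apply hne
      rw [Sylow.coe_subtype, Subgroup.subgroupOf_eq_bot] at e
      rwa [disjoint_iff, inf_eq_left.mpr hSL] at e
    · apply hn
      rw [Sylow.coe_subtype, Subgroup.subgroupOf_eq_top] at e
      rw [← le_antisymm e hSL]; exact hLn
  have hcent : Subgroup.centralizer (L : Set G) = ⊥ := by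
    by_contra hb
    haveI := hLn
    haveI : (L ⊓ Subgroup.centralizer (L : Set G)).Normal := inferInstance
    obtain ⟨a, b, hab⟩ := hna
    rcases eq_or_ne (L ⊓ Subgroup.centralizer (L : Set G)) ⊥ with hd | hd
    · -- the centralizer contains the Sylow subgroup
      have hS := sylow_le_normal h hO S hel (Subgroup.normal_centralizer) hb
      obtain ⟨s, hs, hs1⟩ := (Subgroup.bot_or_exists_ne_one _).resolve_left hne
      exact hs1 (Subgroup.mem_bot.mp (hd ▸ ⟨hSL hs, hS hs⟩ : s ∈ (⊥ : Subgroup G)))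
    · have := (hLmin.le_of_le ⟨inferInstance, hd⟩ inf_le_left).trans inf_le_right
      exact hab (Subtype.ext (Subgroup.mem_centralizer_iff.mp (this a.2) b b.2).symm)
  refine ⟨L, hLn, hsimple, hSL, hcent, hna, ?_⟩
  obtain ⟨s, hs, hs1⟩ := (Subgroup.bot_or_exists_ne_one _).resolve_left hne
  refine ⟨(Subgroup.normalizer ((S : Subgroup G) : Set G)).subgroupOf L,
    StronglyEmbedded.subgroupOf (normalizer_stronglyEmbedded h S hel hne hn) (fun hle => ?_)
      (orderOf_eq_two (hel s hs) hs1) (Subgroup.le_normalizer hs) (hSL hs)⟩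
  -- `L` inside the normalizer makes the Sylow subgroup normal in `L`
  have hP : ((S.subtype hSL : Sylow 2 L) : Subgroup L).Normal := ⟨fun x hx g => by
    rw [Sylow.coe_subtype, Subgroup.mem_subgroupOf] at hx ⊢
    exact (Subgroup.mem_normalizer_iff.mp (hle g.2) _).mp hx⟩
  rcases hsimple.eq_bot_or_eq_top_of_normal _ hP with e | e
  · apply hne
    rw [Sylow.coe_subtype, Subgroup.subgroupOf_eq_bot] at e
    rwa [disjoint_iff, inf_eq_left.mpr hSL] at e
  · apply hn
    rw [Sylow.coe_subtype, Subgroup.subgroupOf_eq_top] at e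
    rw [← le_antisymm e hSL]; exact hLn

end CfsgLib.EqOrderConj75
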